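import Cfsg.Agent.H16.Sl.DefZero
import Cfsg.Agent.H611.CoverPrincipal

/-!
# S4884, own characteristic: the descent from `Inndiag(S)` to `S` (helper690)

`G` finite, `N` normal in `G`, `G / N` cyclic, `p ∣ |N|`, `c` an integer valued function on `Irr(G)` which is invariant under
the twists by linear characters of `G / N`, `c 1 = 1`, `c χ ≠ 0 → χ(1) odd`, and the sum of `c χ * χ(1)` over the principal
`p`-block of `G` is divisible by `|G|_p`. Then the principal `p`-block of `N` has a nontrivial character of degree prime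
to `2 p`.
-/

set_option autoImplicit false
set_option linter.unusedSectionVars false

open Cfsg
open scoped ComplexConjugate

namespace Cfsg.Agent.H690.OwnD

open Cfsg.Agent.H666.Clif Cfsg.Agent.Characters.Core Cfsg.Agent.Blocks

universe u

section orbits

/-- Sums of invariant functions, orbit by orbit. -/
theorem dvd_sum_of_orbits {A X : Type*} [Group A] [Finite A] [MulAction A X] [Fintype X] (f : X → ℤ)
    (hf : ∀ (a : A) (x : X), f (a • x) = f x) {d : ℤ}
    (h : ∀ x : X, d ∣ (Nat.card (MulAction.orbit A x) : ℤ) * f x) : d ∣ ∑ x, f x := by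
  classical
  let r := MulAction.orbitRel A X
  have h1 : ∑ x, f x = ∑ w : Quotient r, ∑ x ∈ Finset.univ.filter (fun x : X => (Quotient.mk r x) = w), f x :=
    (Finset.sum_fiberwise (s := Finset.univ) (g := fun x => Quotient.mk r x) (f := f)).symm
  rw [h1]
  refine Finset.dvd_sum fun w _ => ?_
  induction w using Quotient.inductionOn with
  | h x₀ =>
    have h2 : ∀ x ∈ Finset.univ.filter (fun x : X => (Quotient.mk r x) = Quotient.mk r x₀), f x = f x₀ := by
      intro x hx
      rw [Finset.mem_filter] at hx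
      have h3 : (MulAction.orbitRel A X) x x₀ := Quotient.exact hx.2
      rw [MulAction.orbitRel_apply] at h3
      obtain ⟨a, rfl⟩ := h3
      exact hf a x₀
    rw [Finset.sum_congr rfl h2, Finset.sum_const, nsmul_eq_mul]
    have h4 : (Finset.univ.filter (fun x : X => (Quotient.mk r x) = Quotient.mk r x₀)).card =
        Nat.card (MulAction.orbit A x₀) := by
      rw [Nat.card_eq_fintype_card, ← Set.toFinset_card]
      congr 1
      ext x
      rw [Finset.mem_filter, Set.mem_toFinset]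
      constructor
      · rintro ⟨-, hx⟩
        have h3 : (MulAction.orbitRel A X) x x₀ := Quotient.exact hx
        rwa [MulAction.orbitRel_apply] at h3
      · intro hx
        exact ⟨Finset.mem_univ _, Quotient.sound (by
          show (MulAction.orbitRel A X) x x₀
          rwa [MulAction.orbitRel_apply])⟩
    rw [h4]
    exact h x₀

end orbits

section lin

variable {G : Type u} [Group G] [Finite G]

/-- A group of linear characters trivial on `K`, `G / K` cyclic, has order dividing `|G : K|`. -/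
theorem card_lin_dvd (K : Subgroup G) [K.Normal] (hc : IsCyclic (G ⧸ K)) (L : Subgroup (G →* ℂˣ))
    (hL : ∀ l ∈ L, ∀ x ∈ K, l x = 1) : Finite L ∧ Nat.card L ∣ K.index := by
  obtain ⟨g₁, hg₁⟩ := hc.exists_generator
  obtain ⟨g₀, rfl⟩ := QuotientGroup.mk_surjective g₁
  let f : L →* ℂˣ := {
    toFun := fun l => (l : G →* ℂˣ) g₀
    map_one' := rfl
    map_mul' := fun a b => rfl }
  have hinj : Function.Injective f := by
    rw [injective_iff_map_eq_one]
    intro l hl
    apply Subtype.ext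
    ext1 x
    obtain ⟨k, hk⟩ := Subgroup.mem_zpowers_iff.1 (hg₁ (x : G ⧸ K))
    have h1 : (g₀ ^ k)⁻¹ * x ∈ K := by
      rw [← QuotientGroup.eq]
      rw [QuotientGroup.mk_zpow]
      exact hk
    have h2 : (l : G →* ℂˣ) ((g₀ ^ k)⁻¹ * x) = 1 := hL l l.2 _ h1
    have h3 : (l : G →* ℂˣ) g₀ = 1 := hl
    rw [map_mul, map_inv, map_zpow, h3, one_zpow, inv_one, one_mul] at h2
    rw [h2]
    rfl
  have hne : NeZero K.index := ⟨Subgroup.index_ne_zero_of_finite⟩
  have hle : f.range ≤ rootsOfUnity K.index ℂ := by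
    rintro _ ⟨l, rfl⟩
    rw [mem_rootsOfUnity]
    have h1 : g₀ ^ K.index ∈ K := K.pow_index_mem g₀
    have h2 : (l : G →* ℂˣ) (g₀ ^ K.index) = 1 := hL l l.2 _ h1
    rw [map_pow] at h2
    exact h2
  have hfin : Finite (rootsOfUnity K.index ℂ) := inferInstance
  have hfin' : Finite f.range := Finite.of_injective (Subgroup.inclusion hle) (Subgroup.inclusion_injective hle)
  have e : L ≃ f.range := Equiv.ofInjective f hinj
  refine ⟨Finite.of_equiv _ e.symm, ?_⟩
  rw [Nat.card_congr e]
  have h1 := Subgroup.card_dvd_of_le hle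
  have h2 : Nat.card (rootsOfUnity K.index ℂ) = K.index := Complex.card_rootsOfUnity _
  rwa [h2] at h1

/-- a common divisor of the degrees of the constituents divides the degree -/
theorem dvd_of_constituents {N : Type u} [Group N] [Fintype N] {f : N → ℂ} (hf : IsCharacter N f) (d : ℕ)
    (h : ∀ ψ : IrrCharacter N, classInner f (ψ : N → ℂ) ≠ 0 → d ∣ charDegree (ψ : N → ℂ)) :
    ∃ k : ℕ, f 1 = ((d * k : ℕ) : ℂ) := by
  classical
  have := finite_irr (G := N)
  have := Fintype.ofFinite (IrrCharacter N)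
  obtain ⟨m, hm⟩ := exists_nat_comb hf
  have h1 : f 1 = ((∑ ψ : IrrCharacter N, m ψ * charDegree (ψ : N → ℂ) : ℕ) : ℂ) := by
    rw [hm, Finset.sum_apply]
    push_cast
    refine Finset.sum_congr rfl fun ψ _ => ?_
    rw [Pi.smul_apply, nsmul_eq_mul, Basic.irr_one_eq_charDegree ψ.2]
  have h2 : d ∣ ∑ ψ : IrrCharacter N, m ψ * charDegree (ψ : N → ℂ) := by
    refine Finset.dvd_sum fun ψ _ => ?_
    by_cases h0 : m ψ = 0
    · rw [h0, zero_mul]
      exact dvd_zero _
    · refine Dvd.dvd.mul_left (h ψ ?_) _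
      rw [hm, classInner_sum_nsmul_irr]
      exact_mod_cast h0
  obtain ⟨k, hk⟩ := h2
  exact ⟨k, by rw [h1, hk]⟩

/-- constituents of constituents -/
theorem over_trans' (S T : Subgroup G) [Fintype G] [Fintype S] [Fintype T]
    (hST : S ≤ T) {χ : G → ℂ} (hχ : IsCharacter G χ) {ψ : T → ℂ} (hψ : IsIrrCharacter T ψ)
    {φ : S → ℂ} (hφ : IsIrrCharacter S φ) (h1 : classInner (fun t : T => χ t) ψ ≠ 0)
    (h2 : classInner (fun s : S => ψ (Subgroup.inclusion hST s)) φ ≠ 0) :
    classInner (fun s : S => χ s) φ ≠ 0 := by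
  classical
  have := finite_irr (G := T)
  have := Fintype.ofFinite (IrrCharacter T)
  have hcI2 : IsCharacter T (fun t : T => χ t) := isCharacter_comp T.subtype hχ
  obtain ⟨m, hm⟩ := exists_nat_comb hcI2
  have hmψ : m ⟨ψ, hψ⟩ ≠ 0 := by
    have h3 := classInner_sum_nsmul_irr m ⟨ψ, hψ⟩
    rw [← hm] at h3
    intro h0
    rw [h0, Nat.cast_zero] at h3
    exact h1 h3
  have h4 : (fun s : S => χ s) = ∑ η : IrrCharacter T, m η • (fun s : S => (η : T → ℂ) (Subgroup.inclusion hST s)) := by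
    funext s
    have h5 := congrFun hm (Subgroup.inclusion hST s)
    rw [Finset.sum_apply] at h5 ⊢
    simp only [Pi.smul_apply] at h5 ⊢
    exact h5
  have hnat : ∀ η : IrrCharacter T, ∃ k : ℕ, classInner (fun s : S => (η : T → ℂ) (Subgroup.inclusion hST s)) φ = k :=
    fun η => classInner_isNat (isCharacter_comp (Subgroup.inclusion hST) (isIrr_isCharacter η.2)) (isIrr_isCharacter hφ)
  choose k hk using hnat
  have h6 : classInner (fun s : S => χ s) φ = ((∑ η : IrrCharacter T, m η * k η : ℕ) : ℂ) := by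
    rw [h4, classInner_sum_left]
    push_cast
    refine Finset.sum_congr rfl fun η _ => ?_
    rw [← Nat.cast_smul_eq_nsmul ℂ, classInner_smul_left, hk]
  rw [h6]
  intro h7
  have h8 : ∑ η : IrrCharacter T, m η * k η = 0 := by exact_mod_cast h7
  have h9 := Finset.sum_eq_zero_iff.1 h8 ⟨ψ, hψ⟩ (Finset.mem_univ _)
  rcases Nat.mul_eq_zero.1 h9 with h10 | h10
  · exact hmψ h10
  · apply h2
    have := hk ⟨ψ, hψ⟩
    rw [h10, Nat.cast_zero] at this
    exact this

/-- there is a constituent -/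
theorem exists_constituent {N : Type u} [Group N] [Fintype N] {f : N → ℂ} (hf : IsCharacter N f) (h0 : f 1 ≠ 0) :
    ∃ ψ : IrrCharacter N, classInner f (ψ : N → ℂ) ≠ 0 := by
  classical
  have := finite_irr (G := N)
  have := Fintype.ofFinite (IrrCharacter N)
  obtain ⟨m, hm⟩ := exists_nat_comb hf
  by_contra hcon
  push Not at hcon
  apply h0
  rw [hm, Finset.sum_apply]
  refine Finset.sum_eq_zero fun ψ _ => ?_
  have h1 := hcon ψ
  rw [hm, classInner_sum_nsmul_irr] at h1
  have h2 : m ψ = 0 := by exact_mod_cast h1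
  rw [Pi.smul_apply, h2, zero_smul]

end lin

section main

variable {G : Type u} [Group G] [Finite G] {p : ℕ} [Fact p.Prime] {M : Ideal AlgInt}

/-- the trivial character -/
noncomputable def one (G : Type u) [Group G] : IrrCharacter G := ⟨fun _ => 1, Basic.isIrrCharacter_one⟩

theorem mem_pb {χ : IrrCharacter G} :
    χ ∈ principalBlock M G ↔ SameBlock M (one G : G → ℂ) (χ : G → ℂ) := Iff.rfl

theorem tl_mem (hMp : M.IsPrime) {l : G →* ℂˣ} (hl : tl l (one G) ∈ principalBlock M G) {χ : IrrCharacter G}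
    (hχ : χ ∈ principalBlock M G) : tl l χ ∈ principalBlock M G := by
  rw [mem_pb] at hl hχ ⊢
  exact Basic.sameBlock_trans hl (sameBlock_tl hMp l hχ)

/-- the linear characters of `G / N` in the principal block -/
noncomputable def lam (M : Ideal AlgInt) (hMp : M.IsPrime) (N : Subgroup G) : Subgroup (G →* ℂˣ) where
  carrier := {l | (∀ x ∈ N, l x = 1) ∧ tl l (one G) ∈ principalBlock M G}
  mul_mem' := by
    rintro a b ⟨ha, ha'⟩ ⟨hb, hb'⟩
    refine ⟨fun x hx => by rw [MonoidHom.mul_apply, ha x hx, hb x hx, one_mul], ?_⟩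
    rw [← tl_tl]
    exact tl_mem hMp ha' hb'
  one_mem' := by
    refine ⟨fun x _ => rfl, ?_⟩
    rw [tl_one]
    exact Basic.sameBlock_refl _
  inv_mem' := by
    rintro a ⟨ha, ha'⟩
    refine ⟨fun x hx => by rw [MonoidHom.inv_apply, ha x hx, inv_one], ?_⟩
    rw [mem_pb] at ha' ⊢
    have h1 := sameBlock_tl hMp a⁻¹ ha'
    rw [tl_inv_tl] at h1
    exact Basic.sameBlock_symm h1

theorem mem_lam {hMp : M.IsPrime} {N : Subgroup G} {l : G →* ℂˣ} :
    l ∈ lam M hMp N ↔ (∀ x ∈ N, l x = 1) ∧ tl l (one G) ∈ principalBlock M G := Iff.rfl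

/-- the characters in the principal block which are not trivial on `N` -/
def XX (M : Ideal AlgInt) (N : Subgroup G) : Type u :=
  {χ : IrrCharacter G // χ ∈ principalBlock M G ∧ ∃ x ∈ N, (χ : G → ℂ) x ≠ (χ : G → ℂ) 1}

/-- the action by twists -/
noncomputable instance act (hMp : M.IsPrime) (N : Subgroup G) : MulAction (lam M hMp N) (XX M N) where
  smul l χ := ⟨tl (l : G →* ℂˣ) χ.1, tl_mem hMp l.2.2 χ.2.1, by
    obtain ⟨x, hx, h⟩ := χ.2.2
    refine ⟨x, hx, ?_⟩
    rw [tl_apply, tl_apply, l.2.1 x hx, map_one, Units.val_one, one_mul, one_mul]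
    exact h⟩
  one_smul χ := Subtype.ext (tl_one χ.1)
  mul_smul a b χ := Subtype.ext (tl_tl (a : G →* ℂˣ) (b : G →* ℂˣ) χ.1).symm

theorem smul_val (hMp : M.IsPrime) (N : Subgroup G) (l : lam M hMp N) (χ : XX M N) :
    (l • χ).1 = tl (l : G →* ℂˣ) χ.1 := rfl

/-- **The degree of `χ` is divisible by the order of its stabilizer times a common divisor of the degrees of the
constituents on `N`.** -/
theorem stab_mul_dvd (hMp : M.IsPrime) (N : Subgroup G) [hN : N.Normal] (hc : IsCyclic (G ⧸ N)) (χ : XX M N) (d : ℕ)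
    (h : ∀ θ : IrrCharacter N, Ov N χ.1 θ → d ∣ charDegree (θ : N → ℂ)) :
    Nat.card (MulAction.stabilizer (lam M hMp N) χ) * d ∣ charDegree (χ.1 : G → ℂ) := by
  classical
  have := Fintype.ofFinite G
  -- the intersection of the kernels
  let K : Subgroup G := {
    carrier := {g | ∀ l : lam M hMp N, l • χ = χ → (l : G →* ℂˣ) g = 1}
    mul_mem' := fun {a b} ha hb l hl => by rw [map_mul, ha l hl, hb l hl, one_mul]
    one_mem' := fun l _ => map_one _
    inv_mem' := fun {a} ha l hl => by rw [map_inv, ha l hl, inv_one] }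
  have hmem : ∀ g, g ∈ K ↔ ∀ l : lam M hMp N, l • χ = χ → (l : G →* ℂˣ) g = 1 := fun g => Iff.rfl
  have hNK : N ≤ K := fun x hx l _ => l.2.1 x hx
  have hKn : K.Normal := ⟨fun x hx g l hl => by
    rw [map_mul, map_mul, hx l hl, mul_one, map_inv, mul_inv_cancel]⟩
  have hcK : IsCyclic (G ⧸ K) := by
    let F : G ⧸ N →* G ⧸ K := QuotientGroup.map N K (MonoidHom.id G) (fun x hx => hNK hx)
    refine isCyclic_of_surjective F ?_
    intro y
    obtain ⟨g, rfl⟩ := QuotientGroup.mk_surjective y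
    exact ⟨(g : G ⧸ N), rfl⟩
  have := Fintype.ofFinite K
  have := Fintype.ofFinite N
  have hv : ∀ g, (χ.1 : G → ℂ) g ≠ 0 → g ∈ K := by
    intro g hg l hl
    have h1 := congrArg (fun y : XX M N => (y.1 : G → ℂ) g) hl
    simp only [smul_val, tl_apply] at h1
    have h2 : (((l : G →* ℂˣ) g : ℂˣ) : ℂ) = 1 := mul_right_cancel₀ hg (by rw [one_mul]; exact h1)
    exact Units.ext h2
  -- a constituent on `K`
  have hχK : IsCharacter K (fun k : K => (χ.1 : G → ℂ) k) := isCharacter_comp K.subtype (isIrr_isCharacter χ.1.2)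
  obtain ⟨ε, hε⟩ := exists_constituent hχK (by
    show (χ.1 : G → ℂ) ((1 : K) : G) ≠ 0
    rw [Subgroup.coe_one]
    exact Basic.irr_one_ne_zero χ.1.2)
  obtain ⟨-, hdeg⟩ := H16.Sl.stab_eq K hcK ((ov_iff K χ.1 ε).2 hε) hv
  -- the degree of `ε` is divisible by `d`
  obtain ⟨k, hk⟩ := dvd_of_constituents (N := N)
    (f := fun n : N => (ε : K → ℂ) (Subgroup.inclusion hNK n))
    (isCharacter_comp (Subgroup.inclusion hNK) (isIrr_isCharacter ε.2)) d (fun θ hθ =>
      h θ ((ov_iff N χ.1 θ).2 (over_trans' N K hNK (isIrr_isCharacter χ.1.2) ε.2 θ.2 hε hθ)))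
  have hk' : (ε : K → ℂ) 1 = ((d * k : ℕ) : ℂ) := by
    rw [← hk]
    congr 1
  -- the order of the stabilizer
  have hst : Nat.card (MulAction.stabilizer (lam M hMp N) χ) ∣ K.index := by
    have h1 := (card_lin_dvd K hcK ((MulAction.stabilizer (lam M hMp N) χ).map (lam M hMp N).subtype) (by
      rintro _ ⟨l, hl, rfl⟩ x hx
      exact hx l hl)).2
    rwa [← Nat.card_congr ((MulAction.stabilizer (lam M hMp N) χ).equivMapOfInjective (lam M hMp N).subtype
      (Subgroup.subtype_injective _)).toEquiv] at h1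
  obtain ⟨r, hr⟩ := hst
  have h2 : charDegree (χ.1 : G → ℂ) = K.index * (d * k) := by
    apply Basic.charDegree_of_eq
    rw [hdeg, hk']
    push_cast
    ring
  rw [h2, hr]
  exact ⟨r * k, by ring⟩

/-- the degree of a constituent divides the degree -/
theorem deg_dvd (N : Subgroup G) [hN : N.Normal] {χ : IrrCharacter G} {θ : IrrCharacter N} (h : Ov N χ θ) :
    charDegree (θ : N → ℂ) ∣ charDegree (χ : G → ℂ) := by
  have := Fintype.ofFinite G
  have := Fintype.ofFinite N
  rw [ov_iff] at h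
  obtain ⟨k, hk⟩ := dvd_of_constituents (N := N) (f := fun n : N => (χ : G → ℂ) n)
    (isCharacter_comp N.subtype (isIrr_isCharacter χ.2)) (charDegree (θ : N → ℂ)) (fun ψ hψ => by
      obtain ⟨g, hg⟩ := Characters.Clifford.exists_conj_of_constituents N χ.2 θ.2 ψ.2 h hψ
      have h1 : charDegree (ψ : N → ℂ) = charDegree (θ : N → ℂ) := by
        apply Basic.charDegree_of_eq
        rw [hg, Function.comp_apply, map_one, Basic.irr_one_eq_charDegree θ.2]
      rw [h1])
  refine ⟨k, ?_⟩
  apply Basic.charDegree_of_eq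
  exact hk

/-- if the trivial character is a constituent then `N` is in the kernel -/
theorem triv_of_ov (N : Subgroup G) [hN : N.Normal] {χ : IrrCharacter G} {θ : IrrCharacter N} (h : Ov N χ θ)
    (h1 : (θ : N → ℂ) = fun _ => (1 : ℂ)) : ∀ x ∈ N, (χ : G → ℂ) x = (χ : G → ℂ) 1 := by
  classical
  have := Fintype.ofFinite G
  have := Fintype.ofFinite N
  have := finite_irr (G := N)
  have := Fintype.ofFinite (IrrCharacter N)
  rw [ov_iff] at h
  obtain ⟨m, hm⟩ := exists_nat_comb (isCharacter_comp N.subtype (isIrr_isCharacter χ.2))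
  have h2 : ∀ ψ : IrrCharacter N, m ψ ≠ 0 → ∀ n : N, (ψ : N → ℂ) n = 1 := by
    intro ψ hψ n
    have h3 : classInner (fun n : N => (χ : G → ℂ) n) (ψ : N → ℂ) ≠ 0 := by
      have h4 := classInner_sum_nsmul_irr m ψ
      rw [← hm] at h4
      intro h5
      apply hψ
      have h6 : ((m ψ : ℕ) : ℂ) = 0 := by
        rw [← h4]
        exact h5
      exact_mod_cast h6
    obtain ⟨g, hg⟩ := Characters.Clifford.exists_conj_of_constituents N χ.2 θ.2 ψ.2 h h3
    rw [hg, Function.comp_apply, h1]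
  have h3 : ∀ n : N, (χ : G → ℂ) n = ∑ ψ : IrrCharacter N, (m ψ : ℂ) := by
    intro n
    have h4 := congrFun hm n
    rw [Finset.sum_apply] at h4
    have h5 : (χ : G → ℂ) n = ∑ ψ : IrrCharacter N, (m ψ • (ψ : N → ℂ)) n := h4
    rw [h5]
    refine Finset.sum_congr rfl fun ψ _ => ?_
    rw [Pi.smul_apply, nsmul_eq_mul]
    by_cases h0 : m ψ = 0
    · rw [h0, Nat.cast_zero, zero_mul]
    · rw [h2 ψ h0, mul_one]
  intro x hx
  have h4 := h3 ⟨x, hx⟩
  have h5 := h3 1
  rw [Subgroup.coe_one] at h5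
  rw [h5]
  exact h4

theorem deg_tl (l : G →* ℂˣ) (χ : IrrCharacter G) :
    charDegree (tl l χ : G → ℂ) = charDegree (χ : G → ℂ) := by
  rw [Basic.charDegree_def, Basic.charDegree_def, tl_apply, map_one, Units.val_one, one_mul]

theorem deg_one : charDegree (one G : G → ℂ) = 1 :=
  Basic.charDegree_of_eq (by
    show (1 : ℂ) = ((1 : ℕ) : ℂ)
    rw [Nat.cast_one])

/-- `χ` trivial on `N`, `G / N` cyclic: `χ` is linear -/
theorem exists_lin_of_triv (N : Subgroup G) [hN : N.Normal] (hc : IsCyclic (G ⧸ N)) {χ : IrrCharacter G}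
    (h : ∀ x ∈ N, (χ : G → ℂ) x = (χ : G → ℂ) 1) : ∃ l : G →* ℂˣ, (∀ x ∈ N, l x = 1) ∧ χ = tl l (one G) := by
  have := Fintype.ofFinite G
  have := Fintype.ofFinite N
  refine exists_tl N hc (ε := one N) ?_ ?_
  · rw [ov_iff]
    have h1 := classInner_irr_self (one N).2
    have h2 : (fun n : N => (one G : G → ℂ) n) = (one N : N → ℂ) := rfl
    rw [h2, h1]
    exact one_ne_zero
  · rw [ov_iff]
    have h1 := classInner_irr_self (one N).2
    have h2 : (fun n : N => (χ : G → ℂ) n) = ((χ : G → ℂ) 1) • (one N : N → ℂ) := by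
      funext n
      rw [Pi.smul_apply, smul_eq_mul]
      show (χ : G → ℂ) n = (χ : G → ℂ) 1 * 1
      rw [mul_one]
      exact h n n.2
    rw [h2, classInner_smul_left, h1, mul_one]
    exact Basic.irr_one_ne_zero χ.2

/-- **Descent.** `G / N` cyclic, `p ∣ |N|`, `c` invariant under the twists by linear characters of `G / N`, `c 1 = 1`,
`c χ ≠ 0 → r ∤ χ(1)`, and the sum of `c χ * χ(1)` over the principal `p`-block of `G` divisible by `|G|_p`. Then the
principal `p`-block of `N` has a nontrivial character of degree prime to `r` and `p`. -/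
theorem descent (hM : IsPModular p M) (N : Subgroup G) [hN : N.Normal] (hc : IsCyclic (G ⧸ N))
    (hpN : p ∣ Nat.card N) (r : ℕ) (c : IrrCharacter G → ℤ) (hc1 : c (one G) = 1)
    (hinv : ∀ (l : G →* ℂˣ) (χ : IrrCharacter G), (∀ x ∈ N, l x = 1) → c (tl l χ) = c χ)
    (hr : ∀ χ : IrrCharacter G, c χ ≠ 0 → ¬ r ∣ charDegree (χ : G → ℂ))
    (hsum : ((p : ℤ) ^ (Nat.card G).factorization p) ∣
      ∑ᶠ χ ∈ principalBlock M G, c χ * (charDegree (χ : G → ℂ) : ℤ)) :
    ∃ θ : IrrCharacter N, θ ∈ principalBlock M N ∧ (θ : N → ℂ) ≠ (fun _ => (1 : ℂ)) ∧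
      ¬ r ∣ charDegree (θ : N → ℂ) ∧ ¬ p ∣ charDegree (θ : N → ℂ) := by
  classical
  have hMp : M.IsPrime := Local.isPrime_of_isPModular hM
  have hp := Fact.out (p := p.Prime)
  have := Fintype.ofFinite G
  have := Fintype.ofFinite N
  have := finite_irr (G := G)
  have := Fintype.ofFinite (IrrCharacter G)
  by_contra hcon
  push Not at hcon
  obtain ⟨hfin, hdvd⟩ := card_lin_dvd N hc (lam M hMp N) (fun l hl => hl.1)
  have hXf : Finite (XX M N) := Subtype.finite
  have := Fintype.ofFinite (XX M N)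
  set v := (Nat.card (lam M hMp N)).factorization p with hv
  let f : IrrCharacter G → ℤ := fun χ => c χ * (charDegree (χ : G → ℂ) : ℤ)
  have hpos : 0 < Nat.card (lam M hMp N) := Nat.card_pos
  -- the characters which are not trivial on `N`
  have hX : ((p : ℤ) ^ (v + 1)) ∣ ∑ x : XX M N, f x.1 := by
    refine dvd_sum_of_orbits (A := lam M hMp N) (fun x : XX M N => f x.1) ?_ ?_
    · intro l x
      show c (tl (l : G →* ℂˣ) x.1) * (charDegree (tl (l : G →* ℂˣ) x.1 : G → ℂ) : ℤ) = _
      rw [hinv _ _ l.2.1, deg_tl]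
    · intro x
      show ((p : ℤ) ^ (v + 1)) ∣ _ * (c x.1 * (charDegree (x.1 : G → ℂ) : ℤ))
      by_cases h0 : c x.1 = 0
      · rw [h0, zero_mul, mul_zero]
        exact dvd_zero _
      have h1 : ∀ θ : IrrCharacter N, Ov N x.1 θ → p ∣ charDegree (θ : N → ℂ) := by
        intro θ hθ
        refine hcon θ (H611.CoverPrincipal.mem_principalBlock_of_over p hM N x.1 θ ((ov_iff N x.1 θ).1 hθ) x.2.1)
          ?_ ?_
        · intro h2
          obtain ⟨y, hy, h3⟩ := x.2.2
          exact h3 (triv_of_ov N hθ h2 y hy)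
        · intro h2
          exact hr _ h0 (h2.trans (deg_dvd N hθ))
      obtain ⟨k, hk⟩ := stab_mul_dvd hMp N hc x p h1
      have h3 : Nat.card (MulAction.orbit (lam M hMp N) x) * Nat.card (MulAction.stabilizer (lam M hMp N) x) =
          Nat.card (lam M hMp N) := by
        have := Fintype.ofFinite (lam M hMp N)
        have := Fintype.ofFinite (MulAction.orbit (lam M hMp N) x)
        have := Fintype.ofFinite (MulAction.stabilizer (lam M hMp N) x)
        rw [Nat.card_eq_fintype_card, Nat.card_eq_fintype_card, Nat.card_eq_fintype_card]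
        exact MulAction.card_orbit_mul_card_stabilizer_eq_card_group (lam M hMp N) x
      have h4 : Nat.card (MulAction.orbit (lam M hMp N) x) * charDegree (x.1 : G → ℂ) =
          Nat.card (lam M hMp N) * (p * k) := by
        rw [hk, ← h3]
        ring
      have h5 : p ^ (v + 1) ∣ Nat.card (MulAction.orbit (lam M hMp N) x) * charDegree (x.1 : G → ℂ) := by
        rw [h4, pow_succ]
        exact Nat.mul_dvd_mul (Nat.ordProj_dvd _ _) (Dvd.intro _ rfl)
      have h6 : ((p : ℤ) ^ (v + 1)) ∣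
          (Nat.card (MulAction.orbit (lam M hMp N) x) : ℤ) * (charDegree (x.1 : G → ℂ) : ℤ) := by
        exact_mod_cast h5
      obtain ⟨t, ht⟩ := h6
      refine ⟨c x.1 * t, ?_⟩
      linear_combination (c x.1) * ht
  -- the linear ones
  have hL : ∑ χ ∈ (Finset.univ.filter (fun χ : IrrCharacter G => χ ∈ principalBlock M G)).filter
      (fun χ : IrrCharacter G => ¬ ∃ x ∈ N, (χ : G → ℂ) x ≠ (χ : G → ℂ) 1), f χ = (Nat.card (lam M hMp N) : ℤ) := by
    have := Fintype.ofFinite (lam M hMp N)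
    rw [Nat.card_eq_fintype_card, ← Finset.card_univ]
    have h1 : ((Finset.univ : Finset (lam M hMp N)).card : ℤ) = ∑ l : lam M hMp N, (1 : ℤ) := by
      rw [Finset.sum_const, nsmul_eq_mul, mul_one]
    rw [h1]
    symm
    refine Finset.sum_bij (fun (l : lam M hMp N) _ => tl (l : G →* ℂˣ) (one G)) ?_ ?_ ?_ ?_
    · intro l _
      rw [Finset.mem_filter, Finset.mem_filter]
      refine ⟨⟨Finset.mem_univ _, l.2.2⟩, ?_⟩
      rintro ⟨x, hx, h2⟩
      apply h2
      rw [tl_apply, tl_apply, l.2.1 x hx, map_one]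
      rfl
    · intro a _ b _ hab
      apply Subtype.ext
      ext1 x
      have h2 := congrArg (fun y : IrrCharacter G => (y : G → ℂ) x) hab
      simp only [tl_apply] at h2
      have h3 : (one G : G → ℂ) x = 1 := rfl
      rw [h3, mul_one, mul_one] at h2
      exact Units.ext h2
    · intro χ hχ
      rw [Finset.mem_filter, Finset.mem_filter] at hχ
      have h2 : ∀ x ∈ N, (χ : G → ℂ) x = (χ : G → ℂ) 1 := by
        intro x hx
        by_contra h3
        exact hχ.2 ⟨x, hx, h3⟩
      obtain ⟨l, hl, h3⟩ := exists_lin_of_triv N hc h2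
      refine ⟨⟨l, hl, ?_⟩, Finset.mem_univ _, h3.symm⟩
      rw [← h3]
      exact hχ.1.2
    · intro l _
      show (1 : ℤ) = c (tl (l : G →* ℂˣ) (one G)) * (charDegree (tl (l : G →* ℂˣ) (one G) : G → ℂ) : ℤ)
      rw [hinv _ _ l.2.1, deg_tl, deg_one, hc1]
      norm_num
  -- the whole sum
  have hS : ∑ᶠ χ ∈ principalBlock M G, c χ * (charDegree (χ : G → ℂ) : ℤ) =
      ∑ x : XX M N, f x.1 + (Nat.card (lam M hMp N) : ℤ) := by
    rw [← hL]
    have h1 : ∑ᶠ χ ∈ principalBlock M G, c χ * (charDegree (χ : G → ℂ) : ℤ) =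
        ∑ χ ∈ Finset.univ.filter (fun χ : IrrCharacter G => χ ∈ principalBlock M G), f χ := by
      rw [finsum_mem_eq_finite_toFinset_sum _ (Set.toFinite _)]
      refine Finset.sum_congr ?_ fun _ _ => rfl
      ext χ
      rw [Set.Finite.mem_toFinset, Finset.mem_filter]
      exact ⟨fun h => ⟨Finset.mem_univ _, h⟩, fun h => h.2⟩
    rw [h1, ← Finset.sum_filter_add_sum_filter_not _ (fun χ : IrrCharacter G => ∃ x ∈ N, (χ : G → ℂ) x ≠ (χ : G → ℂ) 1)]
    congr 1
    refine Finset.sum_subtype _ ?_ f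
    intro χ
    rw [Finset.mem_filter, Finset.mem_filter]
    exact ⟨fun h => ⟨h.1.2, h.2⟩, fun h => ⟨⟨Finset.mem_univ _, h.1⟩, h.2⟩⟩
  rw [hS] at hsum
  -- contradiction
  have h1 : v + 1 ≤ (Nat.card G).factorization p := by
    have h2 : Nat.card G = N.index * Nat.card N := by rw [mul_comm]; exact (Subgroup.card_mul_index N).symm
    have h3 : N.index ≠ 0 := Subgroup.index_ne_zero_of_finite
    have h4 : Nat.card N ≠ 0 := Nat.card_pos.ne'
    rw [h2, Nat.factorization_mul h3 h4, Finsupp.add_apply]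
    have h5 : v ≤ N.index.factorization p := (Nat.factorization_le_iff_dvd hpos.ne' h3).2 hdvd p
    have h6 : 1 ≤ (Nat.card N).factorization p := (hp.dvd_iff_one_le_factorization h4).1 hpN
    omega
  have h2 : ((p : ℤ) ^ (v + 1)) ∣ (Nat.card (lam M hMp N) : ℤ) :=
    (dvd_add_right hX).1 (dvd_trans (pow_dvd_pow _ h1) hsum)
  have h3 : p ^ (v + 1) ∣ Nat.card (lam M hMp N) := by exact_mod_cast h2
  exact Nat.pow_succ_factorization_not_dvd hpos.ne' hp h3

end main

end Cfsg.Agent.H690.OwnD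

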